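import Cfsg.Agent.H251.PQ.TorNorm
import Cfsg.Agent.LieClassical.SUBasic

/-!
# S4612: `PSU_n(s)`, two primes dividing `s + 1` (helper572)

`E` = diagonal elements of order dividing the odd prime `p`, `B` = all diagonal elements: `C(E)` consists of monomial
matrices, so it normalises `B` (`not_same_of_normal` of helper251).

* `psu_diag` : `p`, `l` distinct primes dividing `s + 1`, `p` odd, `n ≥ 3`: `¬ Same p l (PSU n K s)`.
-/

set_option autoImplicit false
set_option linter.unusedSectionVars false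

open Cfsg Cfsg.Agent

namespace Cfsg.Agent.H572.PQ

open Cfsg.Agent.H317.PQ (Same)
open Cfsg.Agent.LieClassical.SUBasic

universe u

variable {K : Type u} [Field K] {n s : ℕ}

/-- the matrix of an element of `SU` -/
def mt (A : SU n K s) : Matrix (Fin n) (Fin n) K := ((A : Matrix.SpecialLinearGroup (Fin n) K) : Matrix (Fin n) (Fin n) K)

theorem mt_mul (A B : SU n K s) : mt (A * B) = mt A * mt B := rfl

theorem mt_one : mt (1 : SU n K s) = 1 := rfl

theorem mt_inj {A B : SU n K s} (h : mt A = mt B) : A = B := Subtype.ext (Subtype.ext h)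

theorem mt_inv_mul (A : SU n K s) : mt A⁻¹ * mt A = 1 := by rw [← mt_mul, inv_mul_cancel, mt_one]

theorem mt_mul_inv (A : SU n K s) : mt A * mt A⁻¹ = 1 := by rw [← mt_mul, mul_inv_cancel, mt_one]

/-- the diagonal elements -/
def Dg (n : ℕ) (K : Type u) [Field K] (s : ℕ) : Subgroup (SU n K s) where
  carrier := {A | ∃ d : Fin n → K, mt A = Matrix.diagonal d}
  one_mem' := ⟨1, by rw [mt_one, ← Matrix.diagonal_one]; rfl⟩
  mul_mem' := by
    rintro A B ⟨a, ha⟩ ⟨b, hb⟩
    exact ⟨_, by rw [mt_mul, ha, hb, Matrix.diagonal_mul_diagonal]⟩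
  inv_mem' := by
    rintro A ⟨a, ha⟩
    have h1 := mt_mul_inv A
    rw [ha] at h1
    have ha0 : ∀ i, a i ≠ 0 := by
      intro i h0
      have h2 := congrFun (congrFun h1 i) i
      rw [Matrix.diagonal_mul, h0, zero_mul, Matrix.one_apply_eq] at h2
      exact zero_ne_one h2
    refine ⟨fun i => (a i)⁻¹, ?_⟩
    have h3 : Matrix.diagonal (fun i => (a i)⁻¹) * Matrix.diagonal a = (1 : Matrix (Fin n) (Fin n) K) := by
      rw [Matrix.diagonal_mul_diagonal, ← Matrix.diagonal_one]
      congr 1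
      funext i
      exact inv_mul_cancel₀ (ha0 i)
    calc mt A⁻¹ = 1 * mt A⁻¹ := (one_mul _).symm
      _ = Matrix.diagonal (fun i => (a i)⁻¹) * (Matrix.diagonal a * mt A⁻¹) := by rw [← h3, mul_assoc]
      _ = _ := by rw [h1, mul_one]

theorem Dg_comm {A B : SU n K s} (hA : A ∈ Dg n K s) (hB : B ∈ Dg n K s) : A * B = B * A := by
  obtain ⟨a, ha⟩ := hA
  obtain ⟨b, hb⟩ := hB
  apply mt_inj
  rw [mt_mul, mt_mul, ha, hb, Matrix.diagonal_mul_diagonal, Matrix.diagonal_mul_diagonal]
  congr 1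
  funext i
  exact mul_comm _ _

/-- the diagonal elements of order dividing `p` -/
def Dp (n : ℕ) (K : Type u) [Field K] (s p : ℕ) : Subgroup (SU n K s) where
  carrier := {A | A ∈ Dg n K s ∧ A ^ p = 1}
  one_mem' := ⟨one_mem _, one_pow p⟩
  mul_mem' := by
    rintro A B ⟨hA, hA'⟩ ⟨hB, hB'⟩
    exact ⟨mul_mem hA hB, by rw [(show Commute A B from Dg_comm hA hB).mul_pow, hA', hB', one_mul]⟩
  inv_mem' := by
    rintro A ⟨hA, hA'⟩
    exact ⟨inv_mem hA, by rw [inv_pow, hA', inv_one]⟩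

/-- the element `diag(.., ω, .., ω⁻¹, ..)` -/
theorem exists_el {i j : Fin n} (hij : i ≠ j) {ω : K} (hω : ω ≠ 0) (hs : ω ^ (s + 1) = 1) :
    ∃ A : SU n K s, mt A = Matrix.diagonal (fun k => if k = i then ω else if k = j then ω⁻¹ else 1) := by
  refine ⟨suDiag s (fun k => if k = i then ω else if k = j then ω⁻¹ else 1) ?_ ?_, rfl⟩
  · rw [Finset.prod_eq_mul i j hij]
    · rw [if_pos rfl, if_neg hij.symm, if_pos rfl, mul_inv_cancel₀ hω]
    · intro k _ hk
      rw [if_neg hk.1, if_neg hk.2]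
    · intro h; exact absurd (Finset.mem_univ i) h
    · intro h; exact absurd (Finset.mem_univ j) h
  · intro k
    by_cases h1 : k = i
    · rw [if_pos h1, hs]
    · rw [if_neg h1]
      by_cases h2 : k = j
      · rw [if_pos h2, inv_pow, hs, inv_one]
      · rw [if_neg h2, one_pow]

theorem diag_pow_one {A : SU n K s} {d : Fin n → K} (hA : mt A = Matrix.diagonal d) {p : ℕ} (hd : ∀ i, d i ^ p = 1) :
    A ^ p = 1 := by
  apply mt_inj
  have h1 : ∀ m : ℕ, mt (A ^ m) = Matrix.diagonal fun i => d i ^ m := by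
    intro m
    induction m with
    | zero =>
      rw [pow_zero, mt_one, ← Matrix.diagonal_one]
      congr 1
      funext i
      rw [pow_zero]
    | succ m ih =>
      rw [pow_succ, mt_mul, ih, hA, Matrix.diagonal_mul_diagonal]
      congr 1
      funext i
      rw [pow_succ]
  rw [h1, mt_one, ← Matrix.diagonal_one]
  congr 1
  funext i
  exact hd i

/-- an element which commutes with the elements of `Dp` modulo scalars normalises `Dg` -/
theorem conj_mem {p : ℕ} {ω : K} (hω : ω ≠ 0) (hωp : ω ^ p = 1) (hω2 : ω ^ 2 ≠ 1) (hs : ω ^ (s + 1) = 1) {g : SU n K s}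
    (hg : ∀ e ∈ Dp n K s p, ∃ c : K, c ≠ 0 ∧ mt g * mt e = c • (mt e * mt g)) {d : SU n K s} (hd : d ∈ Dg n K s) :
    g * d * g⁻¹ ∈ Dg n K s := by
  classical
  obtain ⟨d, hd⟩ := hd
  -- the eigenvalue relation
  have key : ∀ i j : Fin n, i ≠ j → ∃ (e : Fin n → K) (c : K), c ≠ 0 ∧ e i ≠ e j ∧ (∀ k, e k ≠ 0) ∧
      ∀ a b, mt g a b ≠ 0 → e b = c * e a := by
    intro i j hij
    obtain ⟨A, hA⟩ := exists_el (n := n) (s := s) hij hω hs
    have hAp : A ∈ Dp n K s p := by
      refine ⟨⟨_, hA⟩, diag_pow_one hA fun k => ?_⟩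
      by_cases h1 : k = i
      · rw [if_pos h1, hωp]
      · rw [if_neg h1]
        by_cases h2 : k = j
        · rw [if_pos h2, inv_pow, hωp, inv_one]
        · rw [if_neg h2, one_pow]
    obtain ⟨c, hc, hgc⟩ := hg A hAp
    refine ⟨fun k => if k = i then ω else if k = j then ω⁻¹ else 1, c, hc, ?_, ?_, ?_⟩
    · show (if i = i then ω else if i = j then ω⁻¹ else 1) ≠ (if j = i then ω else if j = j then ω⁻¹ else 1)
      rw [if_pos rfl, if_neg hij.symm, if_pos rfl]
      intro h
      apply hω2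
      rw [pow_two]
      nth_rewrite 2 [h]
      exact mul_inv_cancel₀ hω
    · intro k
      show (if k = i then ω else if k = j then ω⁻¹ else 1) ≠ 0
      split_ifs
      · exact hω
      · exact inv_ne_zero hω
      · exact one_ne_zero
    · intro a b hab
      have h1 := congrFun (congrFun hgc a) b
      rw [hA, Matrix.mul_diagonal, Matrix.smul_apply, Matrix.diagonal_mul, smul_eq_mul, ← mul_assoc, mul_comm _ (mt g a b)] at h1
      exact mul_left_cancel₀ hab h1
  -- rows have one nonzero entry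
  have hrow : ∀ a b b', mt g a b ≠ 0 → mt g a b' ≠ 0 → b = b' := by
    intro a b b' h1 h2
    by_contra hne
    obtain ⟨e, c, -, he, -, h3⟩ := key b b' hne
    exact he ((h3 a b h1).trans (h3 a b' h2).symm)
  have hex : ∀ a, ∃ b, mt g a b ≠ 0 := by
    intro a
    by_contra hcon
    push Not at hcon
    have h1 := congrFun (congrFun (mt_mul_inv g) a) a
    rw [Matrix.mul_apply, Matrix.one_apply_eq] at h1
    rw [Finset.sum_eq_zero fun b _ => by rw [hcon b, zero_mul]] at h1
    exact zero_ne_one h1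
  choose τ hτ using hex
  refine ⟨fun a => d (τ a), ?_⟩
  have h1 : mt g * Matrix.diagonal d = Matrix.diagonal (fun a => d (τ a)) * mt g := by
    ext a b
    rw [Matrix.mul_diagonal, Matrix.diagonal_mul, mul_comm]
    by_cases h : mt g a b = 0
    · rw [h, mul_zero, mul_zero]
    · rw [hrow a _ _ (hτ a) h]
  rw [mt_mul, mt_mul, hd, h1, mul_assoc, mt_mul_inv, mul_one]

variable [Fintype K]

/-- **`PSU_n(s)`, both primes divide `s + 1`.** -/
theorem psu_diag {p l : ℕ} (hF : Fintype.card K = s ^ 2) (hn : 3 ≤ n) (hp : p.Prime) (hp2 : p ≠ 2) (hl : l.Prime)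
    (hpl : p ≠ l) (hps : p ∣ s + 1) (hls : l ∣ s + 1) : ¬ Same p l (PSU n K s) := by
  classical
  have : Finite (SU n K s) := inferInstance
  -- roots of unity
  have hroot : ∀ {t : ℕ}, t.Prime → t ∣ s + 1 → ∃ ω : K, ω ≠ 0 ∧ ω ≠ 1 ∧ ω ^ t = 1 ∧ ω ^ (s + 1) = 1 := by
    intro t ht hts
    have : Fact t.Prime := ⟨ht⟩
    have h1 : t ∣ Nat.card Kˣ := by
      rw [Nat.card_units, Nat.card_eq_fintype_card, hF]
      have h3 : s ^ 2 - 1 ^ 2 = (s + 1) * (s - 1) := Nat.sq_sub_sq s 1
      rw [one_pow] at h3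
      rw [h3]
      exact hts.mul_right _
    obtain ⟨x, hx⟩ := exists_prime_orderOf_dvd_card' (G := Kˣ) t h1
    have h2 : x ^ t = 1 := by rw [← hx, pow_orderOf_eq_one]
    obtain ⟨m, hm⟩ := hts
    refine ⟨x, x.ne_zero, ?_, ?_, ?_⟩
    · intro h3
      have h4 : x = 1 := Units.ext h3
      rw [h4, orderOf_one] at hx
      exact ht.one_lt.ne hx
    · rw [← Units.val_pow_eq_pow_val, h2, Units.val_one]
    · rw [hm, pow_mul, ← Units.val_pow_eq_pow_val, h2, Units.val_one, one_pow]
  obtain ⟨ω, hω0, hω1, hωp, hωs⟩ := hroot hp hps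
  have hω2 : ω ^ 2 ≠ 1 := by
    intro h
    obtain ⟨m, hm⟩ := hp.odd_of_ne_two hp2
    rw [hm, pow_succ, pow_mul, h, one_pow, one_mul] at hωp
    exact hω1 hωp
  set π := QuotientGroup.mk' (Subgroup.center (SU n K s)) with hπ
  refine H251.PQ.not_same_of_normal hp hl hpl ((Dp n K s p).map π) ((Dg n K s).map π) ?_ ?_ ?_ ?_ ?_
  · rintro ⟨_, A, hA, rfl⟩
    exact ⟨1, Subtype.ext (by
      show (π A) ^ p ^ 1 = 1
      rw [pow_one, ← map_pow, hA.2, map_one])⟩
  · refine ⟨⟨?_⟩⟩
    rintro ⟨_, A, hA, rfl⟩ ⟨_, B, hB, rfl⟩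
    exact Subtype.ext (by
      show π A * π B = π B * π A
      rw [← map_mul, ← map_mul, Dg_comm hA hB])
  · exact Subgroup.map_mono fun A hA => hA.1
  · rintro c hc _ ⟨d, hd, rfl⟩
    obtain ⟨g, rfl⟩ := QuotientGroup.mk'_surjective _ c
    refine ⟨g * d * g⁻¹, conj_mem hω0 hωp hω2 hωs ?_ hd, by rw [map_mul, map_mul, map_inv]⟩
    intro e he
    have h1 : π e * π g = π g * π e := Subgroup.mem_centralizer_iff.1 hc _ ⟨e, he, rfl⟩
    have h2 : (e * g)⁻¹ * (g * e) ∈ Subgroup.center (SU n K s) := by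
      rw [← QuotientGroup.eq]
      exact h1
    obtain ⟨c, hcn, hcq, h3⟩ := (mem_center_SU_iff hF hn _).1 h2
    refine ⟨c, ?_, ?_⟩
    · rintro rfl
      rw [zero_pow (Nat.succ_ne_zero s)] at hcq
      exact zero_ne_one hcq
    · have h4 : g * e = (e * g) * suScalar s c hcn hcq := by rw [← h3]; group
      rw [← mt_mul, h4, mt_mul, mt_mul]
      show mt e * mt g * Matrix.diagonal (fun _ => c) = _
      ext a b
      rw [Matrix.mul_diagonal, Matrix.smul_apply, smul_eq_mul, mul_comm]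
  · obtain ⟨η, hη0, hη1, hηl, hηs⟩ := hroot hl hls
    let i0 : Fin n := ⟨0, by omega⟩
    let i1 : Fin n := ⟨1, by omega⟩
    let i2 : Fin n := ⟨2, by omega⟩
    have h01 : i0 ≠ i1 := fun h => by simpa [i0, i1] using congrArg Fin.val h
    have h20 : i2 ≠ i0 := fun h => by simpa [i0, i2] using congrArg Fin.val h
    have h21 : i2 ≠ i1 := fun h => by simpa [i1, i2] using congrArg Fin.val h
    obtain ⟨A, hA⟩ := exists_el (n := n) (s := s) h01 hη0 hηs
    have hA1 : A ^ l = 1 := by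
      refine diag_pow_one hA fun k => ?_
      by_cases h1 : k = i0
      · rw [if_pos h1, hηl]
      · rw [if_neg h1]
        by_cases h2 : k = i1
        · rw [if_pos h2, inv_pow, hηl, inv_one]
        · rw [if_neg h2, one_pow]
    have hA2 : A ∉ Subgroup.center (SU n K s) := by
      intro h
      obtain ⟨c, _, _, h3⟩ := (mem_center_SU_iff hF hn _).1 h
      have h4 : mt A = Matrix.diagonal fun _ => c := by rw [h3]; rfl
      rw [hA] at h4
      have h5 := congrFun (Matrix.diagonal_injective h4) i0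
      have h6 := congrFun (Matrix.diagonal_injective h4) i2
      simp only [if_pos, if_neg h20, if_neg h21] at h5 h6
      exact hη1 (h5.trans h6.symm)
    have h1 : orderOf (π A) = l := by
      rcases (Nat.dvd_prime hl).1 (orderOf_dvd_of_pow_eq_one (show (π A) ^ l = 1 by rw [← map_pow, hA1, map_one])) with h | h
      · exact absurd ((QuotientGroup.eq_one_iff A).1 (orderOf_eq_one_iff.1 h)) hA2
      · exact h
    rw [← h1]
    exact Subgroup.orderOf_dvd_natCard _ ⟨A, ⟨_, hA⟩, rfl⟩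

end Cfsg.Agent.H572.PQ
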